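import Cfsg.Agent.PLOC.ZJ

/-! Allcock's axiomatic form of Glauberman's ZJ-theorem. -/

set_option autoImplicit false

namespace CL.ZJ

open Subgroup CL.MSS Cfsg
open scoped commutatorElement

variable {G : Type*} [Group G]

/-- The intersection of the members of `𝒜` contained in `Q`. -/
def famInf (𝒜 : Set (Subgroup G)) (Q : Subgroup G) : Subgroup G :=
  ⨅ A ∈ {A : Subgroup G | A ∈ 𝒜 ∧ A ≤ Q}, A

theorem mem_famInf {𝒜 : Set (Subgroup G)} {Q : Subgroup G} {x : G} :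
    x ∈ famInf 𝒜 Q ↔ ∀ A ∈ 𝒜, A ≤ Q → x ∈ A := by
  simp [famInf, mem_iInf]

theorem famInf_le {𝒜 : Set (Subgroup G)} {Q A : Subgroup G} (hA : A ∈ 𝒜) (h : A ≤ Q) :
    famInf 𝒜 Q ≤ A := fun _ hx => mem_famInf.1 hx A hA h

theorem famInf_anti {𝒜 : Set (Subgroup G)} {Q R : Subgroup G} (h : Q ≤ R) :
    famInf 𝒜 R ≤ famInf 𝒜 Q := fun _ hx => mem_famInf.2 fun A hA hQ => mem_famInf.1 hx A hA (hQ.trans h)

structure AllcockFam (P : Subgroup G) (𝒜 : Set (Subgroup G)) : Prop where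
  le : ∀ A ∈ 𝒜, A ≤ P
  comm : ∀ A ∈ 𝒜, IsMulCommutative A
  nonempty : 𝒜.Nonempty
  inv : ∀ Q ≤ P, (∃ A ∈ 𝒜, A ≤ Q) → normalizer (Q : Set G) ≤ normalizer ((famInf 𝒜 Q : Subgroup G) : Set G)
  repl : ∀ B ≤ P, ⁅⁅B, B⁆, B⁆ = ⊥ → (∃ A ∈ 𝒜, ⁅B, B⁆ ≤ A ∧ ¬ B ≤ A) →
    ∃ A ∈ 𝒜, ⁅B, B⁆ ≤ A ∧ ¬ B ≤ A ∧ B ≤ normalizer (A : Set G)

theorem AllcockFam.comm_famInf {P : Subgroup G} {𝒜 : Set (Subgroup G)} (h : AllcockFam P 𝒜) :
    ⁅famInf 𝒜 P, famInf 𝒜 P⁆ = ⊥ := by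
  obtain ⟨A, hA⟩ := h.nonempty
  have := famInf_le hA (h.le A hA)
  exact le_bot_iff.1 ((commutator_mono this this).trans (commutator_self_eq_bot_iff.2 (h.comm A hA)).le)

theorem AllcockFam.le_normalizer {P : Subgroup G} {𝒜 : Set (Subgroup G)} (h : AllcockFam P 𝒜) :
    P ≤ normalizer ((famInf 𝒜 P : Subgroup G) : Set G) :=
  Subgroup.le_normalizer.trans (h.inv P le_rfl (h.nonempty.imp fun A hA => ⟨hA, h.le A hA⟩))

theorem AllcockFam.inf_normal [Finite G] {p : ℕ} [Fact p.Prime] (P : Sylow p G)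
    {𝒜 : Set (Subgroup G)} (h : AllcockFam (P : Subgroup G) 𝒜)
    (hst : ∀ V : Subgroup G, V.Normal → IsPGroup p V → QStable p V)
    (B : Subgroup G) (hBn : B.Normal) (hB : IsPGroup p B) : (famInf 𝒜 P ⊓ B).Normal := by
  induction B using WellFoundedLT.induction with
  | ind B ih =>
  set Z := famInf 𝒜 P with hZ
  have hBP : B ≤ P := hB.le_sylow_of_normal P
  have hPZ : (P : Subgroup G) ≤ normalizer (Z : Set G) := h.le_normalizer
  set W := Z ⊓ B with hW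
  have hB1 : normalClosure (W : Set G) ≤ B := normalClosure_le_normal (fun x hx => hx.2)
  rcases hB1.lt_or_eq with hlt | hB1
  · have := ih _ hlt inferInstance (hB.to_le hB1)
    rwa [show Z ⊓ normalClosure (W : Set G) = W from
      le_antisymm (inf_le_inf_left _ hB1) (le_inf inf_le_left le_normalClosure)] at this
  by_cases hBZ' : B ≤ Z
  · rwa [hW, inf_eq_right.2 hBZ']
  have hne : B ≠ ⊥ := fun e => hBZ' (e ▸ bot_le)
  have hlt : ⁅B, B⁆ < B := CL.PN.commutator_lt_of_isPGroup hB hB Subgroup.le_normalizer hne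
  have hN1 : (Z ⊓ ⁅B, B⁆).Normal := ih _ hlt inferInstance (hB.to_le hlt.le)
  have hBZ : ⁅B, B⁆ ≤ Z := by
    have h1 : ⁅B, W⁆ ≤ Z ⊓ ⁅B, B⁆ := le_inf ((commutator_mono le_rfl inf_le_left).trans
      (commutator_le_right_of_normalizes (hBP.trans hPZ))) (commutator_mono le_rfl inf_le_right)
    have h2 := commutator_normalClosure_le h1
    rw [hB1] at h2
    exact h2.trans inf_le_left
  have hB2 : ⁅⁅B, B⁆, B⁆ = ⊥ := by
    have h1 : ⁅⁅B, B⁆, W⁆ ≤ ⊥ := (commutator_mono hBZ inf_le_left).trans h.comm_famInf.le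
    have h2 := commutator_normalClosure_le h1
    rwa [hB1, le_bot_iff] at h2
  exfalso
  obtain ⟨A, hA, -, hBA, hn⟩ := h.repl B hBP hB2 (by
    by_contra hc
    push Not at hc
    exact hBZ' fun x hx => mem_famInf.2 fun A hA hAP => hc A hA (hBZ.trans (famInf_le hA hAP)) hx)
  have hq : ⁅⁅B, A⁆, A⁆ = ⊥ := le_bot_iff.1 ((commutator_mono
    (commutator_le_right_of_normalizes hn) le_rfl).trans (commutator_self_eq_bot_iff.2 (h.comm A hA)).le)
  obtain ⟨K, hKn, hAK, hK⟩ := hst B hBn hB A (P.isPGroup'.to_le (h.le A hA)) hq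
  set C := centralizer (B : Set G) with hC
  set Q := (P : Subgroup G) ⊓ (K ⊔ C) with hQ
  have hAQ : A ≤ Q := le_inf (h.le A hA) (hAK.trans le_sup_left)
  have hNQ : normalizer (Q : Set G) ≤ normalizer ((famInf 𝒜 Q ⊓ B : Subgroup G) : Set G) :=
    le_normalizer_inf (h.inv Q inf_le_left ⟨A, hA, hAQ⟩) le_normalizer_of_normal
  have hnormal : (famInf 𝒜 Q ⊓ B).Normal := by
    rw [← normalizer_eq_top_iff, eq_top_iff]
    intro g _
    obtain ⟨l, hl, n, hn, rfl⟩ := (sylIn_inf_normal P (K ⊔ C)).frattini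
      (le_normalizer_of_normal (mem_top g))
    refine Subgroup.mul_mem _ ?_ (hNQ hn)
    obtain ⟨x, hx, c, hc, rfl⟩ := mem_sup_of_normal_right.1
      (sup_le (le_sylow_sup_of_pow_mem P hK) le_sup_right hl)
    refine Subgroup.mul_mem _ (hNQ (Subgroup.le_normalizer ⟨hx, ?_⟩))
      (centralizer_le_normalizer _ (centralizer_le (inf_le_right : famInf 𝒜 Q ⊓ B ≤ B) hc))
    simpa using Subgroup.mul_mem _ hl (Subgroup.inv_mem _ (mem_sup_right hc : c ∈ K ⊔ C))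
  refine hBA (hB1.ge.trans ((normalClosure_le_normal ?_).trans
    ((inf_le_left : famInf 𝒜 Q ⊓ B ≤ _).trans (famInf_le hA hAQ))))
  exact fun x hx => ⟨famInf_anti inf_le_left hx.1, hx.2⟩

theorem AllcockFam.normal [Finite G] {p : ℕ} [Fact p.Prime] (P : Sylow p G)
    {𝒜 : Set (Subgroup G)} (h : AllcockFam (P : Subgroup G) 𝒜)
    (hc : centralizer (pCore p G : Set G) ≤ pCore p G)
    (hst : ∀ V : Subgroup G, V.Normal → IsPGroup p V → QStable p V) : (famInf 𝒜 P).Normal := by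
  have h1 := h.inf_normal P hst (pCore p G) inferInstance (CL.isPGroup_pCore p G)
  obtain ⟨A, hA⟩ := h.nonempty
  have h2 : famInf 𝒜 P ≤ pCore p G := le_pCore_of_qstable hc (hst _ inferInstance (CL.isPGroup_pCore p G))
    (P.isPGroup'.to_le ((famInf_le hA (h.le A hA)).trans (h.le A hA)))
    (commutator_self_eq_bot_iff.1 h.comm_famInf) ((CL.pCore_le_sylow P).trans h.le_normalizer)
  rwa [inf_eq_left.2 h2] at h1

end CL.ZJ
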