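import Mathlib
import Cfsg.Agent.PLOC.ESAut

/-!
# The orthogonal group of minus type in dimension four over the field with two elements

It acts as the full symmetric group on the five non-zero singular vectors.
-/

set_option autoImplicit false

namespace CL.ES

open Module QuadraticMap CL.Orth

variable {V : Type*} [AddCommGroup V] [Module (ZMod 2) V] {Q : QuadraticForm (ZMod 2) V}

/-- The non-zero singular vectors. -/
abbrev Sing (Q : QuadraticForm (ZMod 2) V) : Type _ := {v : V // Q v = 0 ∧ v ≠ 0}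

/-- The action of the orthogonal group on the non-zero singular vectors. -/
def singHom (Q : QuadraticForm (ZMod 2) V) : O Q →* Equiv.Perm (Sing Q) :=
  MonoidHom.mk' (fun g => g.1.toEquiv.subtypeEquiv fun v => by
    rw [LinearEquiv.coe_toEquiv, O_map, g.1.map_ne_zero_iff]) fun _ _ => rfl

theorem singHom_apply (g : O Q) (v : Sing Q) : (singHom Q g v).1 = g.1 v.1 := rfl

theorem std_minus_four_sep : ∀ x : (Fin 1 ⊕ Fin 1) ⊕ Fin 2 → ZMod 2,
    (∀ s, Cfsg.quadFormMinus 1 (ZMod 2) 1 1 s = 0 → Cfsg.quadFormMinus 1 (ZMod 2) 1 1 (x + s) =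
      Cfsg.quadFormMinus 1 (ZMod 2) 1 1 x) → x = 0 := by
  decide

set_option synthInstance.maxSize 2000 in
theorem std_minus_four_polar : ∀ s t : (Fin 1 ⊕ Fin 1) ⊕ Fin 2 → ZMod 2,
    Cfsg.quadFormMinus 1 (ZMod 2) 1 1 s = 0 → Cfsg.quadFormMinus 1 (ZMod 2) 1 1 t = 0 → s ≠ 0 →
      t ≠ 0 → s ≠ t → Cfsg.quadFormMinus 1 (ZMod 2) 1 1 (s + t) = 1 := by
  decide

variable [Finite V] (hQ : (polarBilin Q).Nondegenerate) (hd : finrank (ZMod 2) V = 4)
  (hpl : ¬ IsPlus Q)
include hQ hd hpl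

theorem card_sing : Nat.card (Sing Q) = 5 := by
  classical
  have h1 := two_mul_card_zero_of_not_isPlus (m := 2) hQ hd hpl
  have h2 := Nat.card_congr (Equiv.optionSubtypeNe (⟨0, map_zero Q⟩ : {v // Q v = 0}))
  have h3 : Nat.card (Sing Q) = Nat.card {b : {v // Q v = 0} // b ≠ ⟨0, map_zero Q⟩} :=
    Nat.card_congr ⟨fun v => ⟨⟨v.1, v.2.1⟩, fun h => v.2.2 (congrArg Subtype.val h)⟩,
      fun b => ⟨b.1.1, b.1.2, fun h => b.2 (Subtype.ext h)⟩, fun _ => rfl, fun _ => rfl⟩
  rw [Finite.card_option] at h2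
  omega

theorem eq_zero_of_polar_sing {x : V} (hx : ∀ s, Q s = 0 → polar Q x s = 0) : x = 0 := by
  obtain ⟨φ, hφ⟩ := exists_isometry_QMinus (m := 1) hQ hd hpl aniso_two
  obtain ⟨x, rfl⟩ := φ.surjective x
  rw [std_minus_four_sep x fun s hs => ?_, map_zero]
  have h1 : Q (φ s) = 0 := (hφ s).trans hs
  have h2 := hx _ h1
  rw [polar, ← map_add, h1, sub_zero, sub_eq_zero, hφ, hφ] at h2
  exact h2

theorem Q_add_sing {s t : Sing Q} (hst : s ≠ t) : Q (s.1 + t.1) = 1 := by
  obtain ⟨φ, hφ⟩ := exists_isometry_QMinus (m := 1) hQ hd hpl aniso_two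
  obtain ⟨s, hs, hs0⟩ := s
  obtain ⟨t, ht, ht0⟩ := t
  obtain ⟨s, rfl⟩ := φ.surjective s
  obtain ⟨t, rfl⟩ := φ.surjective t
  rw [← map_add, hφ]
  exact std_minus_four_polar s t ((hφ s).symm.trans hs) ((hφ t).symm.trans ht)
    (fun h => hs0 (by rw [h, map_zero])) (fun h => ht0 (by rw [h, map_zero]))
    fun h => hst (by subst h; rfl)

theorem polar_sing {s t : Sing Q} (hst : s ≠ t) : polar Q s.1 t.1 = 1 := by
  rw [polar, Q_add_sing hQ hd hpl hst, s.2.1, t.2.1, sub_zero, sub_zero]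

theorem singHom_refl [DecidableEq (Sing Q)] {s t : Sing Q} (hst : s ≠ t) :
    singHom Q (refl Q (s.1 + t.1)) = Equiv.swap s t := by
  have h2 : ∀ v : V, v + v = 0 := fun v => by
    rw [← two_smul (ZMod 2) v, show (2 : ZMod 2) = 0 from rfl, zero_smul]
  have hss : ∀ u : Sing Q, polar Q u.1 u.1 = 0 := fun u => by rw [polar_self', u.2.1, mul_zero]
  ext u
  rw [singHom_apply, refl_apply, Q_add_sing hQ hd hpl hst, inv_one, one_mul, polar_add_left]
  by_cases h1 : u = s
  · rw [h1, Equiv.swap_apply_left, hss, polar_sing hQ hd hpl hst.symm, zero_add, one_smul,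
      sub_add_cancel_left, neg_eq_iff_add_eq_zero, h2]
  by_cases h3 : u = t
  · rw [h3, Equiv.swap_apply_right, hss, polar_sing hQ hd hpl hst, add_zero, one_smul,
      sub_add_cancel_right, neg_eq_iff_add_eq_zero, h2]
  · rw [Equiv.swap_apply_of_ne_of_ne h1 h3, polar_sing hQ hd hpl (Ne.symm h1),
      polar_sing hQ hd hpl (Ne.symm h3), show (1 + 1 : ZMod 2) = 0 from rfl, zero_smul, sub_zero]

theorem singHom_bijective : Function.Bijective (singHom Q) := by
  classical
  constructor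
  · rw [injective_iff_map_eq_one]
    intro g hg
    refine O_ext fun v => sub_eq_zero.mp (eq_zero_of_polar_sing hQ hd hpl fun s hs => ?_)
    by_cases hs0 : s = 0
    · rw [hs0, polar_zero_right]
    have : g.1 s = s := congrArg (fun σ : Equiv.Perm (Sing Q) => (σ ⟨s, hs, hs0⟩).1) hg
    rw [polar_sub_left, O_one_apply, ← O_polar g v s, this, sub_self]
  · have := Fintype.ofFinite (Sing Q)
    rw [← MonoidHom.range_eq_top, eq_top_iff, ← Equiv.Perm.closure_isSwap, Subgroup.closure_le]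
    rintro _ ⟨s, t, hst, rfl⟩
    exact ⟨_, singHom_refl hQ hd hpl hst⟩

theorem nonempty_O_equiv_perm : Nonempty (O Q ≃* Equiv.Perm (Fin 5)) :=
  ⟨(MulEquiv.ofBijective _ (singHom_bijective hQ hd hpl)).trans
    (Finite.equivFinOfCardEq (card_sing hQ hd hpl)).permCongrHom⟩

end CL.ES
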